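import Cfsg.Agent.H18.Carter.SpDef
import Cfsg.Agent.H381.Car.LemX

/-!
# S3852, rows `PSp₂ₙ(q)`, `q = 3^odd`: the case where `(K ∩ L)/⟨-1⟩` is a 3-group (helper274)
-/

set_option autoImplicit false
set_option linter.style.haveILetI false

namespace Cfsg.Agent.H274.Carter

open Subgroup
open Cfsg.Agent.Solvable.Carter Cfsg.Agent.H18.Carter

universe u

/-! ### Lemma X modulo a central element of order two -/

section Lift

variable {Γ : Type u} [Group Γ] [Finite Γ]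

theorem le_of_sylow {p : ℕ} [Fact p.Prime] {U W L : Subgroup Γ} (hUW : U ≤ W) (hWL : W ≤ L) (hW : IsPGroup p W)
    (h : ¬ p ∣ U.relIndex L) : W ≤ U := by
  have h1 := relIndex_mul_relIndex U W L hUW hWL
  have h2 : ¬ p ∣ U.relIndex W := fun hd => h (h1 ▸ hd.mul_right _)
  have h3 : U.relIndex W ∣ Nat.card W := relIndex_dvd_card U W
  obtain ⟨n, hn⟩ := IsPGroup.iff_card.1 hW
  rw [hn] at h3
  obtain ⟨m, -, hm⟩ := (Nat.dvd_prime_pow (Fact.out : p.Prime)).1 h3
  rcases Nat.eq_zero_or_pos m with rfl | hm0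
  · rw [pow_zero, relIndex_eq_one] at hm
    exact hm
  · exact absurd (hm ▸ dvd_pow_self p hm0.ne') h2

/-- a group with a central subgroup of order two and quotient a 3-group -/
theorem exists_odd_part {P : Type u} [Group P] [Finite P] {a : ℕ} (hP : Nat.card P = 3 ^ a * 2) :
    ∃ S : Subgroup P, IsPGroup 3 S ∧ S.index ∣ 2 ∧ ∀ x : P, ∀ k : ℕ, x ^ 3 ^ k = 1 → x ∈ S := by
  haveI : Fact (Nat.Prime 3) := ⟨Nat.prime_three⟩
  obtain ⟨S⟩ : Nonempty (Sylow 3 P) := inferInstance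
  have h1 : ¬ 3 ∣ (S : Subgroup P).index := S.not_dvd_index
  have h2 : (S : Subgroup P).index ∣ 3 ^ a * 2 := by rw [← hP]; exact index_dvd_card _
  have h3 : (S : Subgroup P).index ∣ 2 := by
    refine Nat.Coprime.dvd_of_dvd_mul_left ?_ h2
    exact Nat.Coprime.pow_right _ ((Nat.Prime.coprime_iff_not_dvd Nat.prime_three).2 h1).symm
  have hn : (S : Subgroup P).Normal := by
    rcases (Nat.dvd_prime Nat.prime_two).1 h3 with h4 | h4
    · rw [index_eq_one] at h4
      rw [h4]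
      infer_instance
    · exact normal_of_index_eq_two h4
  refine ⟨S, S.isPGroup', h3, fun x k hx => ?_⟩
  have h4 : x ^ 2 ∈ (S : Subgroup P) := by
    obtain ⟨m, hm⟩ := h3
    rw [hm, pow_mul]
    exact pow_mem (Subgroup.pow_index_mem _ x) m
  have h5 : Odd (3 ^ k) := Odd.pow (by decide)
  obtain ⟨m, hm⟩ := h5
  have h6 : x ^ 3 ^ k ∈ (S : Subgroup P) := by rw [hx]; exact one_mem _
  rw [hm, pow_succ, pow_mul] at h6
  exact (mul_mem_cancel_left (pow_mem h4 m)).1 h6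

/-- **Lemma X** in `Γ/⟨e⟩`, lifted to `Γ`. -/
theorem lift_x (hFp : Cfsg.Agent.H381.Car.Fpf.{u}) (sm : Sm2 Γ) {e : Γ} (he : ∀ g, g * e = e * g) (he2 : orderOf e = 2)
    {L : Subgroup Γ} [hLn : L.Normal] (heL : e ∈ L) {K : Subgroup Γ} (hK : IsCarter K)
    (h3 : ∀ x ∈ K ⊓ L, ∃ k : ℕ, x ^ 3 ^ k = 1 ∨ x ^ 3 ^ k = e) :
    ∃ U : Subgroup Γ, U ≤ L ∧ IsPGroup 3 U ∧ ¬ 3 ∣ U.relIndex L ∧ K ≤ normalizer (U : Set Γ) := by
  haveI : Fact (Nat.Prime 3) := ⟨Nat.prime_three⟩
  have hec : e ∈ center Γ := mem_center_iff.2 he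
  have hZ : zpowers e ≤ center Γ := by rw [zpowers_le]; exact hec
  haveI hZn : (zpowers e).Normal := ⟨fun n hn g => by
    rw [(mem_center_iff.1 (hZ hn)) g, mul_inv_cancel_right]
    exact hn⟩
  have hZK : zpowers e ≤ K := by
    rw [zpowers_le]
    exact IsCarter.center_le hK hec
  have hcard : Nat.card Γ = Nat.card (Γ ⧸ zpowers e) * 2 := by
    have h1 := Subgroup.card_eq_card_quotient_mul_card_subgroup (zpowers e)
    rwa [Nat.card_zpowers, he2] at h1
  set f := QuotientGroup.mk' (zpowers e) with hf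
  have hfs : Function.Surjective f := QuotientGroup.mk'_surjective _
  haveI : (L.map f).Normal := hLn.map f hfs
  obtain ⟨P', hP'N, hP'p, hP'i, hP'K⟩ := Cfsg.Agent.H381.Car.lemma_x hFp (G := Γ ⧸ zpowers e) (l := 3)
    (fun Y _ _ hY => sm Y (by omega)) (L.map f) (IsCarter.map_central hZ hK) (by
      rintro ⟨y, ⟨k, hk, rfl⟩, l, hl, e1⟩
      have h1 : l ∈ K := by
        have h2 : k⁻¹ * l ∈ zpowers e := QuotientGroup.eq.1 e1.symm
        have := mul_mem hk (hZK h2)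
        rwa [mul_inv_cancel_left] at this
      obtain ⟨m, hm⟩ := h3 l ⟨h1, hl⟩
      refine ⟨m, Subtype.ext ?_⟩
      change (f k) ^ 3 ^ m = 1
      rw [← e1, ← map_pow]
      rcases hm with hm | hm
      · rw [hm, map_one]
      · rw [hm]
        exact (QuotientGroup.eq_one_iff e).2 (mem_zpowers e))
  set P := P'.comap f with hP
  have hPL : P ≤ L := by
    have h1 : P ≤ (L.map f).comap f := comap_mono hP'N
    rw [comap_map_eq, hf, QuotientGroup.ker_mk', sup_eq_left.2 (by rw [zpowers_le]; exact heL)] at h1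
    exact h1
  have hPi : P.relIndex L = P'.relIndex (L.map f) := relIndex_comap P' f L
  obtain ⟨a, ha⟩ := IsPGroup.iff_card.1 hP'p
  have hPc : Nat.card P = 3 ^ a * 2 := by
    have h1 : P.index = P'.index := index_comap_of_surjective _ hfs
    have h2 := card_mul_index P
    have h4 := card_mul_index P'
    rw [h1, hcard, ← h4, ha] at h2
    have h5 : 0 < P'.index := Nat.pos_of_ne_zero index_ne_zero_of_finite
    refine Nat.eq_of_mul_eq_mul_right h5 ?_
    rw [h2]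
    ring
  obtain ⟨S, hS3, hSi, hS⟩ := exists_odd_part hPc
  have hmem : ∀ x ∈ P, ∀ k : ℕ, x ^ 3 ^ k = 1 → x ∈ S.map P.subtype := by
    intro x hx k hk
    exact ⟨⟨x, hx⟩, hS ⟨x, hx⟩ k (Subtype.ext hk), rfl⟩
  have hkey : ∀ k ∈ K, ∀ x ∈ S.map P.subtype, k * x * k⁻¹ ∈ S.map P.subtype := by
    rintro k hk _ ⟨x, hx, rfl⟩
    obtain ⟨m, hm⟩ := hS3 ⟨x, hx⟩
    have hm' : (x : Γ) ^ 3 ^ m = 1 := congrArg (fun z : S => ((z : P) : Γ)) hm
    refine hmem _ ?_ m ?_
    · have h1 := (mem_normalizer_iff.1 (hP'K ⟨k, hk, rfl⟩) (f (x : Γ))).1 x.2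
      change f (k * (x : Γ) * k⁻¹) ∈ P'
      rw [map_mul, map_mul, map_inv]
      exact h1
    · change (k * (x : Γ) * k⁻¹) ^ 3 ^ m = 1
      rw [conj_pow, hm', mul_one, mul_inv_cancel]
  refine ⟨S.map P.subtype, (map_subtype_le _).trans hPL, hS3.map _, ?_, ?_⟩
  · have h1 := relIndex_mul_relIndex (S.map P.subtype) P L (map_subtype_le _) hPL
    have h2 : (S.map P.subtype).relIndex P = S.index := by
      rw [relIndex]
      congr 1
      exact comap_map_eq_self_of_injective P.subtype_injective S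
    rw [← h1, h2, hPi]
    intro hd
    rcases (Nat.Prime.dvd_mul Nat.prime_three).1 hd with h4 | h4
    · exact absurd (h4.trans hSi) (by decide)
    · exact hP'i h4
  · intro k hk
    rw [mem_normalizer_iff]
    intro x
    refine ⟨hkey k hk x, fun hx => ?_⟩
    have h1 := hkey k⁻¹ (inv_mem hk) _ hx
    have e1 : k⁻¹ * (k * x * k⁻¹) * k⁻¹⁻¹ = x := by group
    rwa [e1] at h1

end Lift

/-! ### the stabiliser of a line and its radical -/

section Geo

variable {F : Type} [Field F] {V : Type} [AddCommGroup V] [Module F V] {B : V →ₗ[F] V →ₗ[F] F} {Γ : Type u} [Group Γ]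
  (T : Md F B Γ)

/-- the stabiliser of the line `⟨v⟩` -/
def St (v : V) : Subgroup Γ where
  carrier := {g | ∃ c : F, c ≠ 0 ∧ T.ρ g v = c • v}
  one_mem' := ⟨1, one_ne_zero, by rw [T.ρ_one, one_smul]⟩
  mul_mem' := by
    rintro g h ⟨c, hc, hg⟩ ⟨d, hd, hh⟩
    refine ⟨T.σ g d * c, mul_ne_zero ((map_ne_zero_iff _ (T.σ g).injective).2 hd) hc, ?_⟩
    rw [T.ρ_mul, hh, T.smul, hg, mul_smul]
  inv_mem' := by
    rintro g ⟨c, hc, hg⟩
    refine ⟨(T.σ g⁻¹ c)⁻¹, inv_ne_zero ((map_ne_zero_iff _ (T.σ g⁻¹).injective).2 hc), ?_⟩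
    have h1 := T.ρ_inv_self g v
    rw [hg, T.smul] at h1
    have hc' : T.σ g⁻¹ c ≠ 0 := (map_ne_zero_iff _ (T.σ g⁻¹).injective).2 hc
    rw [← h1, smul_smul, inv_mul_cancel₀ hc', one_smul, h1]

theorem mem_St {v : V} {g : Γ} : g ∈ St T v ↔ ∃ c : F, c ≠ 0 ∧ T.ρ g v = c • v := Iff.rfl

variable {T}

theorem perp_of_St {v : V} {g : Γ} (hg : g ∈ St T v) {u : V} (hu : B u v = 0) : B (T.ρ g u) v = 0 := by
  obtain ⟨c, hc, h⟩ := hg
  have h1 := T.form g u v
  rw [h, hu, map_smul, map_zero, smul_eq_mul] at h1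
  exact (mul_eq_zero.1 h1).resolve_left hc

variable (T)

/-- the radical of the stabiliser: trivial on `⟨v⟩`, `v^⊥/⟨v⟩` -/
def QQ (v : V) : Subgroup Γ where
  carrier := {x | x ∈ T.L ∧ T.ρ x v = v ∧ ∀ u, B u v = 0 → ∃ a : F, T.ρ x u = u + a • v}
  one_mem' := ⟨one_mem _, T.ρ_one v, fun u _ => ⟨0, by rw [T.ρ_one, zero_smul, add_zero]⟩⟩
  mul_mem' := by
    rintro x y ⟨hx, hxv, hxu⟩ ⟨hy, hyv, hyu⟩
    refine ⟨mul_mem hx hy, by rw [T.ρ_mul, hyv, hxv], fun u hu => ?_⟩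
    obtain ⟨a, ha⟩ := hyu u hu
    obtain ⟨b, hb⟩ := hxu u hu
    refine ⟨b + a, ?_⟩
    rw [T.ρ_mul, ha, T.add, hb, T.smul_L hx, hxv, add_smul, add_assoc]
  inv_mem' := by
    rintro x ⟨hx, hxv, hxu⟩
    have hv : T.ρ x⁻¹ v = v := by
      have := T.ρ_inv_self x v
      rwa [hxv] at this
    refine ⟨inv_mem hx, hv, fun u hu => ?_⟩
    have h1 : B (T.ρ x⁻¹ u) v = 0 := perp_of_St (T := T) ⟨1, one_ne_zero, by rw [hv, one_smul]⟩ hu
    obtain ⟨a, ha⟩ := hxu _ h1
    rw [T.ρ_self_inv] at ha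
    refine ⟨-a, ?_⟩
    rw [ha]
    rw [neg_smul, add_neg_cancel_right]
    rw [← ha]

variable {T}

theorem mem_QQ {v : V} {x : Γ} :
    x ∈ QQ T v ↔ x ∈ T.L ∧ T.ρ x v = v ∧ ∀ u, B u v = 0 → ∃ a : F, T.ρ x u = u + a • v := Iff.rfl

theorem QQ_le_St (v : V) : QQ T v ≤ St T v := fun _ hx => ⟨1, one_ne_zero, by rw [hx.2.1, one_smul]⟩

theorem conj_QQ {v : V} {g x : Γ} (hg : g ∈ St T v) (hx : x ∈ QQ T v) : g * x * g⁻¹ ∈ QQ T v := by
  obtain ⟨c, hc, hgv⟩ := hg
  obtain ⟨c', hc', hgv'⟩ := inv_mem (show g ∈ St T v from ⟨c, hc, hgv⟩)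
  refine ⟨(inferInstance : T.L.Normal).conj_mem _ hx.1 _, ?_, fun u hu => ?_⟩
  · rw [T.ρ_mul, T.ρ_mul, hgv', T.smul_L hx.1, hx.2.1, ← hgv', T.ρ_self_inv]
  · have h1 : B (T.ρ g⁻¹ u) v = 0 := perp_of_St (T := T) ⟨c', hc', hgv'⟩ hu
    obtain ⟨a, ha⟩ := hx.2.2 _ h1
    refine ⟨T.σ g a * c, ?_⟩
    rw [T.ρ_mul, T.ρ_mul, ha, T.add, T.smul, T.ρ_self_inv, hgv, mul_smul]

theorem St_le_normalizer (v : V) : St T v ≤ normalizer (QQ T v : Set Γ) := by
  intro g hg
  rw [mem_normalizer_iff]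
  intro x
  refine ⟨conj_QQ hg, fun hx => ?_⟩
  have h1 := conj_QQ (inv_mem hg) hx
  have e1 : g⁻¹ * (g * x * g⁻¹) * g⁻¹⁻¹ = x := by group
  rwa [e1] at h1

/-- the elements of the radical have order dividing 3 -/
theorem QQ_cube (hc : (3 : F) = 0) {v : V} {x : Γ} (hx : x ∈ QQ T v) : x ^ 3 = 1 := by
  apply T.ext
  intro w
  obtain ⟨hxL, hxv, hxu⟩ := hx
  have h1 : B (T.ρ x w - w) v = 0 := by
    have h2 := T.form_L hxL w v
    rw [hxv] at h2
    rw [map_sub, LinearMap.sub_apply, h2, sub_self]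
  obtain ⟨a, ha⟩ := hxu _ h1
  set u := T.ρ x w - w with hu
  have hw : T.ρ x w = w + u := by rw [hu]; abel
  have e : x ^ 3 = x * (x * x) := by rw [pow_succ, pow_two, mul_assoc]
  rw [T.ρ_one, e, T.ρ_mul, T.ρ_mul, hw, T.add, hw, ha, T.add, T.add, T.add, hw, ha, T.smul_L hxL, hxv]
  have h3 : (3 : F) • u + (3 * a) • v = 0 := by rw [hc, zero_mul, zero_smul, zero_smul, add_zero]
  linear_combination (norm := module) h3

/-- the isometries `x ↦ x + B(x,v) u + B(x,u) v` -/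
theorem exists_gu (hB : Alt F B) {u v : V} (hu : B u v = 0) :
    ∃ g ∈ QQ T v, ∀ x, T.ρ g x = x + B x v • u + B x u • v := by
  have hv := hB.alt v
  have hu' := hB.alt u
  have huv : B v u = 0 := by rw [hB.skew, hu, neg_zero]
  let φ : V →ₗ[F] V := LinearMap.id + (B.flip v).smulRight u + (B.flip u).smulRight v
  let ψ : V →ₗ[F] V := LinearMap.id - (B.flip v).smulRight u - (B.flip u).smulRight v
  have hφ : ∀ x, φ x = x + B x v • u + B x u • v := fun x => rfl
  have hψ : ∀ x, ψ x = x - B x v • u - B x u • v := fun x => rfl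
  let e : V ≃ₗ[F] V := LinearEquiv.ofLinearMap φ ψ (by
    ext x
    simp only [LinearMap.comp_apply, hφ, hψ, LinearMap.id_apply, map_sub, map_smul, LinearMap.sub_apply, LinearMap.smul_apply,
      smul_eq_mul, hv, hu', hu, huv, mul_zero, sub_zero]
    abel) (by
    ext x
    simp only [LinearMap.comp_apply, hφ, hψ, LinearMap.id_apply, map_add, map_smul, LinearMap.add_apply, LinearMap.smul_apply,
      smul_eq_mul, hv, hu', hu, huv, mul_zero, add_zero]
    abel)
  obtain ⟨g, hg, hge⟩ := T.exists_L e (by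
    intro x y
    change B (φ x) (φ y) = B x y
    rw [hφ, hφ]
    simp only [map_add, map_smul, LinearMap.add_apply, LinearMap.smul_apply, smul_eq_mul, hv, hu', hu, huv]
    rw [hB.skew u y, hB.skew v y]
    ring)
  have hg' : ∀ x, T.ρ g x = x + B x v • u + B x u • v := fun x => hge x
  refine ⟨g, ⟨hg, ?_, fun w hw => ⟨B w u, ?_⟩⟩, hg'⟩
  · rw [hg', hv, huv, zero_smul, zero_smul, add_zero, add_zero]
  · rw [hg', hw, zero_smul, add_zero]

/-- the transvections `x ↦ x + B(x,w) w` -/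
theorem exists_trans (hB : Alt F B) (w : V) : ∃ g ∈ T.L, ∀ x, T.ρ g x = x + B x w • w := by
  have hw := hB.alt w
  let φ : V →ₗ[F] V := LinearMap.id + (B.flip w).smulRight w
  let ψ : V →ₗ[F] V := LinearMap.id - (B.flip w).smulRight w
  have hφ : ∀ x, φ x = x + B x w • w := fun x => rfl
  have hψ : ∀ x, ψ x = x - B x w • w := fun x => rfl
  let e : V ≃ₗ[F] V := LinearEquiv.ofLinearMap φ ψ (by
    ext x
    simp only [LinearMap.comp_apply, hφ, hψ, LinearMap.id_apply, map_sub, map_smul, LinearMap.sub_apply, LinearMap.smul_apply,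
      smul_eq_mul, hw, mul_zero, sub_zero]
    abel) (by
    ext x
    simp only [LinearMap.comp_apply, hφ, hψ, LinearMap.id_apply, map_add, map_smul, LinearMap.add_apply, LinearMap.smul_apply,
      smul_eq_mul, hw, mul_zero, add_zero]
    abel)
  obtain ⟨g, hg, hge⟩ := T.exists_L e (by
    intro x y
    change B (φ x) (φ y) = B x y
    rw [hφ, hφ]
    simp only [map_add, map_smul, LinearMap.add_apply, LinearMap.smul_apply, smul_eq_mul, hw]
    rw [hB.skew w y]
    ring)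
  exact ⟨g, hg, fun x => hge x⟩

/-- the isometry `-1` on the hyperbolic plane `⟨v, v'⟩`, `1` on its orthogonal space -/
theorem exists_t (hB : Alt F B) {v v' : V} (h1 : B v' v = 1) :
    ∃ t ∈ T.L, ∀ x, T.ρ t x = x - (2 : F) • (B x v • v' - B x v' • v) := by
  have hv := hB.alt v
  have hv' := hB.alt v'
  have h2 : B v v' = -1 := by rw [hB.skew, h1]
  let φ : V →ₗ[F] V := LinearMap.id - (2 : F) • ((B.flip v).smulRight v' - (B.flip v').smulRight v)
  have hφ : ∀ x, φ x = x - (2 : F) • (B x v • v' - B x v' • v) := fun x => rfl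
  have hφφ : φ.comp φ = LinearMap.id := by
    ext x
    simp only [LinearMap.comp_apply, hφ, LinearMap.id_apply, map_sub, map_smul, LinearMap.sub_apply, LinearMap.smul_apply,
      smul_eq_mul, hv, hv', h1, h2]
    module
  let e : V ≃ₗ[F] V := LinearEquiv.ofLinearMap φ φ hφφ hφφ
  obtain ⟨g, hg, hge⟩ := T.exists_L e (by
    intro x y
    change B (φ x) (φ y) = B x y
    rw [hφ, hφ]
    simp only [map_sub, map_smul, LinearMap.sub_apply, LinearMap.smul_apply, smul_eq_mul, hv, hv', h1, h2]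
    rw [hB.skew v y, hB.skew v' y]
    ring)
  exact ⟨g, hg, fun x => hge x⟩

/-- `(v^⊥)^⊥ = ⟨v⟩` -/
theorem eq_smul_of_perp (hB : Alt F B) {v v' w : V} (h1 : B v' v = 1) (hw : ∀ u, B u v = 0 → B w u = 0) :
    w = B v' w • v := by
  rw [← sub_eq_zero]
  apply hB.nd
  intro x
  have h2 : B (x - B x v • v') v = 0 := by
    rw [map_sub, map_smul, LinearMap.sub_apply, LinearMap.smul_apply, h1, smul_eq_mul, mul_one, sub_self]
  have h3 := hw _ h2
  rw [map_sub, map_smul, smul_eq_mul] at h3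
  rw [map_sub, map_smul, LinearMap.sub_apply, LinearMap.smul_apply, smul_eq_mul, hB.skew v' w, hB.skew v x]
  linear_combination h3

/-- dimension at least 3: a vector of `v^⊥` outside `⟨v⟩` -/
theorem exists_perp [FiniteDimensional F V] (hd : 4 ≤ Module.finrank F V) (v : V) :
    ∃ u, B u v = 0 ∧ ∀ c : F, u ≠ c • v := by
  by_contra hcon
  push Not at hcon
  have h1 : LinearMap.ker (B.flip v) ≤ Submodule.span F {v} := by
    intro u hu
    obtain ⟨c, hc⟩ := hcon u hu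
    rw [Submodule.mem_span_singleton]
    exact ⟨c, hc.symm⟩
  have h2 := Submodule.finrank_mono h1
  have h3 : Module.finrank F (Submodule.span F {v}) ≤ 1 := by
    by_cases hv : v = 0
    · rw [hv, Submodule.span_zero_singleton, finrank_bot]
      omega
    · rw [finrank_span_singleton hv]
  have h4 := (B.flip v).finrank_range_add_finrank_ker
  have h5 : Module.finrank F (LinearMap.range (B.flip v)) ≤ 1 := by
    have := Submodule.finrank_le (LinearMap.range (B.flip v))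
    rwa [Module.finrank_self] at this
  omega

end Geo

/-! ### the theorem -/

/-- **(SP-B)** -/
theorem stepB {F : Type} [Field F] [Fintype F] {V : Type} [AddCommGroup V] [Module F V] [FiniteDimensional F V]
    {B : V →ₗ[F] V →ₗ[F] F} (hB : Alt F B) {Γ : Type u} [Group Γ] [Finite Γ] (T : Md F B Γ)
    (hFp : Cfsg.Agent.H381.Car.Fpf.{u}) (sm : Sm2 Γ) {f : ℕ} (hF : Fintype.card F = 3 ^ (2 * f + 1))
    (hd : 4 ≤ Module.finrank F V) {K : Subgroup Γ} (hK : IsCarter K)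
    (h3 : ∀ x ∈ K ⊓ T.L, ∃ k : ℕ, x ^ 3 ^ k = 1 ∨ x ^ 3 ^ k = T.eps) : False := by
  haveI : Fact (Nat.Prime 3) := ⟨Nat.prime_three⟩
  haveI : Nontrivial V := Module.nontrivial_of_finrank_pos (R := F) (by omega)
  haveI : Finite V := Module.finite_of_finite F
  -- the characteristic
  have hc3 : (3 : F) = 0 := by
    have h1 : (Fintype.card F : F) = 0 := FiniteField.cast_card_eq_zero F
    rw [hF, Nat.cast_pow] at h1
    have h2 := pow_eq_zero_iff (n := 2 * f + 1) (by omega) |>.1 h1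
    exact_mod_cast h2
  have hc2 : (2 : F) ≠ 0 := by
    intro h
    have : (1 : F) = 0 := by linear_combination hc3 - h
    exact one_ne_zero this
  have he := T.eps_comm
  have he2 := T.orderOf_eps hc2
  obtain ⟨U, hUL, hU3, hUi, hKU⟩ := lift_x hFp sm he he2 T.eps_mem hK h3
  -- a vector fixed by `U`
  obtain ⟨v, hv0, hUv⟩ : ∃ v : V, v ≠ 0 ∧ ∀ g ∈ U, T.ρ g v = v := by
    letI : MulAction U V := MulAction.compHom V (T.ρ.comp U.subtype)
    have hs : ∀ (g : U) (w : V), g • w = T.ρ (g : Γ) w := fun g w => rfl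
    have hV : 3 ∣ Nat.card V := by
      haveI := Fintype.ofFinite V
      rw [Nat.card_eq_fintype_card, Module.card_eq_pow_finrank (K := F) (V := V), hF]
      exact (dvd_pow_self 3 (by omega)).trans (dvd_pow_self _ (by omega))
    obtain ⟨v, hv, hv0⟩ := hU3.exists_fixed_point_of_prime_dvd_card_of_fixed_point V hV (a := (0 : V))
      (by intro g; rw [hs, T.ρ_zero])
    refine ⟨v, hv0.symm, fun g hg => ?_⟩
    exact hv ⟨g, hg⟩
  -- `Q ≤ U`
  have hUSt : U ≤ St T v := fun g hg => ⟨1, one_ne_zero, by rw [hUv g hg, one_smul]⟩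
  have hQU : QQ T v ≤ U := by
    have hQ3 : IsPGroup 3 (QQ T v) := by
      intro x
      refine ⟨1, Subtype.ext ?_⟩
      rw [pow_one]
      exact QQ_cube hc3 x.2
    have h1 : IsPGroup 3 (U ⊔ QQ T v : Subgroup Γ) :=
      hU3.to_sup_of_normal_right' hQ3 (hUSt.trans (St_le_normalizer v))
    exact le_sup_right.trans (le_of_sylow le_sup_left (sup_le hUL fun x hx => hx.1) h1 hUi)
  -- a hyperbolic pair
  obtain ⟨v', hv'⟩ : ∃ v', B v' v = 1 := by
    by_contra hcon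
    push Not at hcon
    apply hv0
    apply hB.nd
    intro w
    by_contra hw
    have h1 : B w v ≠ 0 := by rwa [hB.skew, neg_ne_zero]
    apply hcon ((B w v)⁻¹ • w)
    rw [map_smul, LinearMap.smul_apply, smul_eq_mul, inv_mul_cancel₀ h1]
  obtain ⟨u₀, hu₀, hu₀v⟩ := exists_perp (B := B) hd v
  -- the fixed vectors of `Q`
  have hfix : ∀ w : V, (∀ g ∈ QQ T v, T.ρ g w = w) → ∃ c : F, w = c • v := by
    intro w hw
    have h1 : ∀ u, B u v = 0 → B w v • u + B w u • v = 0 := by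
      intro u hu
      obtain ⟨g, hg, hgu⟩ := exists_gu (T := T) hB hu
      have h2 := hw g hg
      rw [hgu, add_assoc] at h2
      exact left_eq_add.1 h2.symm
    have h2 : B w v = 0 := by
      by_contra h
      have h4 := h1 u₀ hu₀
      apply hu₀v (-(B w v)⁻¹ * B w u₀)
      have h5 : (B w v)⁻¹ • (B w v • u₀ + B w u₀ • v) = 0 := by rw [h4, smul_zero]
      rw [smul_add, smul_smul, smul_smul, inv_mul_cancel₀ h, one_smul] at h5
      rw [neg_mul, neg_smul]
      exact eq_neg_of_add_eq_zero_left h5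
    refine ⟨_, eq_smul_of_perp hB hv' fun u hu => ?_⟩
    have h4 := h1 u hu
    rw [h2, zero_smul, zero_add] at h4
    exact (smul_eq_zero.1 h4).resolve_right hv0
  -- `K` stabilises `⟨v⟩`
  have hKSt : K ≤ St T v := by
    intro k hk
    obtain ⟨c, hc⟩ := hfix (T.ρ k v) fun g hg => by
      have h1 : k⁻¹ * g * k ∈ U := by
        have h2 := (mem_normalizer_iff.1 (hKU (inv_mem hk)) g).1 (hQU hg)
        rwa [inv_inv] at h2
      have h2 := hUv _ h1
      have h4 := congrArg (T.ρ k) h2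
      rw [← T.ρ_mul] at h4
      have e1 : k * (k⁻¹ * g * k) = g * k := by group
      rw [e1, T.ρ_mul] at h4
      exact h4
    refine ⟨c, ?_, hc⟩
    rintro rfl
    rw [zero_smul] at hc
    apply hv0
    have h1 := T.ρ_inv_self k v
    rw [hc, T.ρ_zero] at h1
    exact h1.symm
  -- the involution `t`
  obtain ⟨t, htL, ht⟩ := exists_t (T := T) hB hv'
  have hvv' : B v v' = -1 := by rw [hB.skew, hv']
  have htv : T.ρ t v = -v := by
    rw [ht, hB.alt, hvv']
    module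
  have htSt : t ∈ St T v := ⟨-1, neg_ne_zero.2 one_ne_zero, by rw [htv, neg_smul, one_smul]⟩
  have htu : ∀ u, B u v = 0 → ∃ a : F, T.ρ t u = u + a • v := by
    intro u hu
    refine ⟨2 * B u v', ?_⟩
    rw [ht, hu]
    module
  have htu' : ∀ u, B u v = 0 → ∃ a : F, T.ρ t⁻¹ u = u + a • v := by
    intro u hu
    have h1 : B (T.ρ t⁻¹ u) v = 0 := perp_of_St (inv_mem htSt) hu
    obtain ⟨a, ha⟩ := htu _ h1
    rw [T.ρ_self_inv] at ha
    refine ⟨-a, ?_⟩
    nth_rw 2 [ha]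
    rw [neg_smul, add_neg_cancel_right]
  have htv' : T.ρ t⁻¹ v = -v := by
    have h1 := T.ρ_inv_self t v
    rw [htv, T.ρ_neg] at h1
    rw [← h1, neg_neg, h1]
  -- commutators with `t`
  have hcomm : ∀ k ∈ St T v, k * t * k⁻¹ * t⁻¹ ∈ QQ T v := by
    intro k hk
    obtain ⟨c', hc', hkv'⟩ := inv_mem hk
    refine ⟨mul_mem ((inferInstance : T.L.Normal).conj_mem _ htL _) (inv_mem htL), ?_, fun u hu => ?_⟩
    · rw [T.ρ_mul, htv', T.ρ_mul, T.ρ_mul, T.ρ_neg, T.ρ_neg, hkv', T.smul_L htL, htv, smul_neg, neg_neg, ← hkv',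
        T.ρ_self_inv]
    · obtain ⟨a, ha⟩ := htu' u hu
      obtain ⟨b, hb⟩ := htu _ (perp_of_St (inv_mem hk) hu)
      obtain ⟨c, -, hkv⟩ := hk
      refine ⟨T.σ k (b - T.σ k⁻¹ a * c') * c, ?_⟩
      rw [T.ρ_mul, ha, T.ρ_mul, T.ρ_mul, T.add, T.smul, hkv', T.add, hb, smul_smul, T.smul_L htL, htv]
      have e1 : T.ρ k⁻¹ u + b • v + (T.σ k⁻¹ a * c') • -v = T.ρ k⁻¹ u + (b - T.σ k⁻¹ a * c') • v := by
        rw [smul_neg, sub_smul]
        abel
      rw [e1, T.add, T.smul, T.ρ_self_inv, hkv, smul_smul]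
  -- `M = K Q`
  set M := K ⊔ QQ T v with hM
  have hMSt : M ≤ St T v := sup_le hKSt (QQ_le_St v)
  have hMtop : M ≠ ⊤ := by
    intro htop
    obtain ⟨g, -, hg⟩ := exists_trans (T := T) hB v'
    obtain ⟨c, -, hc⟩ := hMSt (show g ∈ M from htop ▸ mem_top g)
    rw [hg, hvv'] at hc
    have h1 := congrArg (fun x => B x v) hc
    simp only [map_add, map_smul, LinearMap.add_apply, LinearMap.smul_apply, hB.alt, hv', smul_eq_mul, mul_zero, mul_one,
      zero_add] at h1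
    exact (neg_ne_zero.2 one_ne_zero) h1
  have key : ∀ s : Γ, (∀ k ∈ K, s * k * s⁻¹ ∈ M) → s ∈ St T v → ∀ x ∈ M, s * x * s⁻¹ ∈ M := by
    intro s hs hsSt x hx
    obtain ⟨k, hk, y, hy, rfl⟩ := mul_mem_of_norm' (hKSt.trans (St_le_normalizer v)) hx
    have e1 : s * (k * y) * s⁻¹ = (s * k * s⁻¹) * (s * y * s⁻¹) := by group
    rw [e1]
    exact mul_mem (hs k hk) (mem_sup_right (conj_QQ hsSt hy))
  have htM : t ∈ normalizer (M : Set Γ) := by
    have h1 := key t (fun k hk => by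
      have e1 : t * k * t⁻¹ = (k * t * k⁻¹ * t⁻¹)⁻¹ * k := by group
      rw [e1]
      exact mul_mem (mem_sup_right (inv_mem (hcomm k (hKSt hk)))) (mem_sup_left hk)) htSt
    have h2 := key t⁻¹ (fun k hk => by
      have e1 : t⁻¹ * k * t⁻¹⁻¹ = t⁻¹ * (k * t * k⁻¹ * t⁻¹) * t * k := by group
      rw [e1]
      refine mul_mem (mem_sup_right ?_) (mem_sup_left hk)
      have h4 := conj_QQ (inv_mem htSt) (hcomm k (hKSt hk))
      rwa [inv_inv] at h4) (inv_mem htSt)
    rw [mem_normalizer_iff]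
    intro x
    refine ⟨h1 x, fun hx => ?_⟩
    have h4 := h2 _ hx
    have e1 : t⁻¹ * (t * x * t⁻¹) * t⁻¹⁻¹ = x := by group
    rwa [e1] at h4
  have htM' : t ∈ M := sm.norm he he2 hK le_sup_left hMtop htM
  obtain ⟨k, hk, x, hx, htk⟩ := mul_mem_of_norm' (hKSt.trans (St_le_normalizer v)) htM'
  have hkt : k = t * x⁻¹ := by rw [htk, mul_inv_cancel_right]
  have hkL : k ∈ T.L := by
    rw [hkt]
    exact mul_mem htL (inv_mem hx.1)
  -- the action of `k`
  have hkv : T.ρ k v = -v := by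
    rw [hkt, T.ρ_mul, (inv_mem hx : x⁻¹ ∈ QQ T v).2.1, htv]
  have hku : ∀ u, B u v = 0 → ∃ a : F, T.ρ k u = u + a • v := by
    intro u hu
    obtain ⟨a, ha⟩ := (inv_mem hx : x⁻¹ ∈ QQ T v).2.2 u hu
    obtain ⟨b, hb⟩ := htu u hu
    refine ⟨b - a, ?_⟩
    rw [hkt, T.ρ_mul, ha, T.add, hb, T.smul_L htL, htv, smul_neg, sub_smul]
    abel
  obtain ⟨j, hj⟩ := h3 k ⟨hk, hkL⟩
  have hpv : ∀ n, T.ρ (k ^ (2 * n)) v = v := by
    intro n
    induction n with
    | zero => rw [mul_zero, pow_zero, T.ρ_one]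
    | succ n ih => rw [mul_add, pow_add, T.ρ_mul, mul_one, pow_two, T.ρ_mul, hkv, T.ρ_neg, hkv, neg_neg, ih]
  have hpu : ∀ n, ∀ u, B u v = 0 → ∃ a : F, T.ρ (k ^ n) u = u + a • v := by
    intro n
    induction n with
    | zero => exact fun u _ => ⟨0, by rw [pow_zero, T.ρ_one, zero_smul, add_zero]⟩
    | succ n ih =>
      intro u hu
      obtain ⟨a, ha⟩ := ih u hu
      obtain ⟨b, hb⟩ := hku u hu
      refine ⟨b - a, ?_⟩
      rw [pow_succ', T.ρ_mul, ha, T.add, hb, T.smul_L hkL, hkv, smul_neg, sub_smul]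
      abel
  obtain ⟨m, hm⟩ : Odd (3 ^ j) := Odd.pow (by decide)
  rcases hj with hj | hj
  · have h1 : T.ρ (k ^ 3 ^ j) v = -v := by
      rw [hm, pow_succ', T.ρ_mul, hpv, hkv]
    rw [hj, T.ρ_one] at h1
    have h2 : (2 : F) • v = 0 := by
      rw [two_smul]
      nth_rw 1 [h1]
      exact neg_add_cancel v
    exact (smul_ne_zero hc2 hv0) h2
  · obtain ⟨a, ha⟩ := hpu (3 ^ j) u₀ hu₀
    rw [hj, T.eps_apply] at ha
    apply hu₀v (-(2⁻¹ * a))
    have h2 : (2 : F) • u₀ = (2 : F) • (-(2⁻¹ * a) • v) := by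
      rw [smul_smul, mul_neg, mul_inv_cancel_left₀ hc2, neg_smul, two_smul]
      have h4 : u₀ + u₀ + a • v = 0 := by
        rw [add_assoc, ← ha, add_neg_cancel]
      exact eq_neg_of_add_eq_zero_left h4
    exact smul_right_injective V hc2 h2

end Cfsg.Agent.H274.Carter
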